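-- helper22: the Brauer–Wielandt order formula for a rank-two coprime action.
import Mathlib
import Cfsg.Agent.Lib.Helper31.CoprimeGen
import Cfsg.Agent.Lib.Helper31.InvSylow
import Cfsg.Agent.Lib.Helper24.ConjAction

set_option autoImplicit false

namespace Cfsg.Agent.Lib.Helper22.BrauerWielandt

open Cfsg.Agent.Lib.Helper31.CoprimeGen

section General

variable {Q : Type*} [Group Q]

/-- The `p + 1` automorphisms `β`, `α * β ^ j` (`j < p`). -/
def gam (p : ℕ) (α β : MulAut Q) : Option (Fin p) → MulAut Q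
  | none => β
  | some j => α * β ^ (j : ℕ)

theorem gam_pow {p : ℕ} {α β : MulAut Q} (hαβ : Commute α β) (hα : α ^ p = 1) (hβ : β ^ p = 1)
    (i : Option (Fin p)) : (gam p α β i) ^ p = 1 := by
  cases i with
  | none => exact hβ
  | some j =>
    show (α * β ^ (j : ℕ)) ^ p = 1
    rw [(hαβ.pow_right _).mul_pow, hα, ← pow_mul, mul_comm, pow_mul, hβ, one_pow, one_mul]

theorem gam_commute {p : ℕ} {α β : MulAut Q} (hαβ : Commute α β) (i i' : Option (Fin p)) :
    Commute (gam p α β i) (gam p α β i') := by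
  have h1 : ∀ j : ℕ, Commute β (α * β ^ j) :=
    fun j => (hαβ.symm).mul_right ((Commute.refl β).pow_right j)
  have h2 : ∀ j k : ℕ, Commute (α * β ^ j) (α * β ^ k) := by
    intro j k
    apply Commute.mul_left
    · exact (Commute.refl α).mul_right (hαβ.pow_right k)
    · exact ((h1 k).pow_left j)
  cases i with
  | none =>
    cases i' with
    | none => exact Commute.refl _
    | some k => exact h1 _
  | some j =>
    cases i' with
    | none => exact (h1 _).symm
    | some k => exact h2 _ _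

theorem fix_pow {φ : MulAut Q} {v : Q} (h : φ v = v) (n : ℕ) : (φ ^ n) v = v := by
  induction n with
  | zero => simp
  | succ n ih => rw [pow_succ, MulAut.mul_apply, h, ih]

theorem le_fix_gam (p : ℕ) (α β : MulAut Q) (i : Option (Fin p)) :
    fixSub α ⊓ fixSub β ≤ fixSub (gam p α β i) := by
  intro v hv
  obtain ⟨h1, h2⟩ := Subgroup.mem_inf.mp hv
  rw [mem_fixSub] at h1 h2 ⊢
  cases i with
  | none => exact h2
  | some j =>
    show (α * β ^ (j : ℕ)) v = v
    rw [MulAut.mul_apply, fix_pow h2, h1]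

theorem fix_of_fix_pow {p : ℕ} [Fact p.Prime] {β : MulAut Q} (hβ : β ^ p = 1) {d : ℕ}
    (hd0 : 0 < d) (hdp : d < p) {v : Q} (h : (β ^ d) v = v) : β v = v := by
  have hpr : p.Prime := Fact.out
  have hcop : Nat.Coprime d p :=
    (Nat.Prime.coprime_iff_not_dvd hpr).mpr (Nat.not_dvd_of_pos_of_lt hd0 hdp) |>.symm
  obtain ⟨m, -, hm⟩ := Nat.exists_mul_mod_eq_one_of_coprime hcop hpr.one_lt
  have h1 : β ^ (d * m) = β := by
    rw [pow_eq_pow_mod (d * m) hβ, hm, pow_one]
  have h2 := fix_pow h m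
  rw [← pow_mul, h1] at h2
  exact h2

theorem fix_inf_le_aux {p : ℕ} [Fact p.Prime] {α β : MulAut Q} (hβ : β ^ p = 1)
    {j k : ℕ} (hjk : j < k) (hk : k < p) {v : Q} (hj : (α * β ^ j) v = v)
    (hk' : (α * β ^ k) v = v) : α v = v ∧ β v = v := by
  rw [MulAut.mul_apply] at hj hk'
  have h1 : (β ^ j) v = (β ^ k) v := α.injective (hj.trans hk'.symm)
  have h2 : (β ^ (k - j)) v = v := by
    have e : β ^ k = β ^ j * β ^ (k - j) := by rw [← pow_add]; congr 1; omega
    rw [e, MulAut.mul_apply] at h1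
    exact ((β ^ j).injective h1).symm
  have h3 : β v = v := fix_of_fix_pow hβ (by omega) (by omega) h2
  refine ⟨?_, h3⟩
  rw [fix_pow h3] at hj
  exact hj

theorem fix_inf_le {p : ℕ} [Fact p.Prime] {α β : MulAut Q} (hβ : β ^ p = 1)
    {i i' : Option (Fin p)} (hne : i ≠ i') :
    fixSub (gam p α β i) ⊓ fixSub (gam p α β i') ≤ fixSub α ⊓ fixSub β := by
  intro v hv
  obtain ⟨h1, h2⟩ := Subgroup.mem_inf.mp hv
  rw [mem_fixSub] at h1 h2
  rw [Subgroup.mem_inf, mem_fixSub, mem_fixSub]
  have key : ∀ (j : Fin p), (α * β ^ (j : ℕ)) v = v → β v = v → α v = v ∧ β v = v := by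
    intro j hj hb
    refine ⟨?_, hb⟩
    rw [MulAut.mul_apply, fix_pow hb] at hj
    exact hj
  cases i with
  | none =>
    cases i' with
    | none => exact absurd rfl hne
    | some k => exact key k h2 h1
  | some j =>
    cases i' with
    | none => exact key j h1 h2
    | some k =>
      have hjk : (j : ℕ) ≠ (k : ℕ) := fun h => hne (congrArg some (Fin.ext h))
      rcases lt_or_gt_of_ne hjk with h | h
      · exact fix_inf_le_aux hβ h k.2 h1 h2
      · exact fix_inf_le_aux hβ h j.2 h2 h1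

end General

section Comm

variable {V : Type*} [CommGroup V]

/-- The norm endomorphism `v ↦ ∏_{k < p} φ^k v`. -/
noncomputable def nrm (p : ℕ) (φ : MulAut V) : V →* V :=
  ∏ k ∈ Finset.range p, (φ ^ k).toMonoidHom

theorem nrm_apply (p : ℕ) (φ : MulAut V) (v : V) :
    nrm p φ v = ∏ k ∈ Finset.range p, (φ ^ k) v := by
  simp [nrm]

theorem nrm_fix {p : ℕ} {φ : MulAut V} (hφ : φ ^ p = 1) (v : V) : φ (nrm p φ v) = nrm p φ v := by
  rw [nrm_apply, map_prod]
  have h1 : ∀ k, φ ((φ ^ k) v) = (φ ^ (k + 1)) v := by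
    intro k; rw [pow_succ', MulAut.mul_apply]
  simp only [h1]
  have h2 := Finset.prod_range_succ_comm (fun k => (φ ^ k) v) p
  have h3 := Finset.prod_range_succ' (fun k => (φ ^ k) v) p
  have h4 : (φ ^ p) v = (φ ^ 0) v := by rw [hφ, pow_zero]
  rw [Finset.prod_range_succ, h4] at h3
  exact (mul_right_cancel h3).symm

theorem nrm_of_fix {p : ℕ} {φ : MulAut V} {v : V} (h : φ v = v) : nrm p φ v = v ^ p := by
  rw [nrm_apply]
  simp only [fix_pow h]
  rw [Finset.prod_const, Finset.card_range]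

theorem nrm_fix_of_commute {p : ℕ} {φ ψ : MulAut V} (hc : Commute ψ φ) {v : V} (h : ψ v = v) :
    ψ (nrm p φ v) = nrm p φ v := by
  rw [nrm_apply, map_prod]
  apply Finset.prod_congr rfl
  intro k _
  have h1 : ψ * φ ^ k = φ ^ k * ψ := (hc.pow_right k).eq
  have h2 := congrArg (fun f : MulAut V => f v) h1
  simp only [MulAut.mul_apply] at h2
  rw [h2, h]

/-- The Brauer–Wielandt formula for an abelian group. -/
theorem bw_comm [Finite V] {p : ℕ} [Fact p.Prime] (hV : ¬ p ∣ Nat.card V)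
    (α β : MulAut V) (hαβ : Commute α β) (hα : α ^ p = 1) (hβ : β ^ p = 1) :
    Nat.card V * Nat.card ↥(fixSub α ⊓ fixSub β) ^ p
      = Nat.card ↥(fixSub β) * ∏ j ∈ Finset.range p, Nat.card ↥(fixSub (α * β ^ j)) := by
  classical
  have hpr : p.Prime := Fact.out
  set C := fixSub α ⊓ fixSub β with hC
  set F : Option (Fin p) → Subgroup V := fun i => fixSub (gam p α β i) with hF
  have hCF : ∀ i, C ≤ F i := fun i => le_fix_gam p α β i
  have hcop : (Nat.card V).Coprime p := ((Nat.Prime.coprime_iff_not_dvd hpr).mpr hV).symm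
  -- kernel claim
  have hker : ∀ f : (∀ i, ↥(F i)), ∏ i, (f i : V) = 1 → ∀ j, (f j : V) ∈ C := by
    intro f hf j
    apply mem_of_pow_mem hcop C
    have h1 : nrm p (gam p α β j) (∏ i, (f i : V)) = 1 := by rw [hf, map_one]
    rw [map_prod, ← Finset.mul_prod_erase Finset.univ _ (Finset.mem_univ j)] at h1
    have h2 : nrm p (gam p α β j) (f j : V) = (f j : V) ^ p :=
      nrm_of_fix ((mem_fixSub _ _).mp (f j).2)
    rw [h2] at h1
    have h3 : ∏ i ∈ Finset.univ.erase j, nrm p (gam p α β j) (f i : V) ∈ C := by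
      apply Subgroup.prod_mem
      intro i hi
      have hij : i ≠ j := Finset.ne_of_mem_erase hi
      apply fix_inf_le hβ hij
      refine Subgroup.mem_inf.mpr ⟨?_, ?_⟩
      · rw [mem_fixSub]
        exact nrm_fix_of_commute (gam_commute hαβ i j) ((mem_fixSub _ _).mp (f i).2)
      · rw [mem_fixSub]
        exact nrm_fix (gam_pow hαβ hα hβ j) _
    have h4 : (f j : V) ^ p
        = (∏ i ∈ Finset.univ.erase j, nrm p (gam p α β j) (f i : V))⁻¹ :=
      eq_inv_of_mul_eq_one_left h1
    rw [h4]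
    exact inv_mem h3
  -- the product map
  let Ψ : (∀ i, ↥(F i)) →* V :=
    { toFun := fun f => ∏ i, (f i : V)
      map_one' := by simp
      map_mul' := fun f g => by simp [Finset.prod_mul_distrib] }
  have hΨ : ∀ f, Ψ f = ∏ i, (f i : V) := fun f => rfl
  have hsingle : ∀ i (x : ↥(F i)), Ψ (Pi.mulSingle i x) = (x : V) := by
    intro i x
    rw [hΨ, Finset.prod_eq_single i]
    · rw [Pi.mulSingle_eq_same]
    · intro i' _ hne
      rw [Pi.mulSingle_eq_of_ne hne]
      rfl
    · intro h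
      exact absurd (Finset.mem_univ i) h
  have hrange : Ψ.range = ⊤ := by
    rw [eq_top_iff, ← nilpotent_generation hV α β hαβ hα hβ]
    apply sup_le
    · intro x hx
      exact ⟨Pi.mulSingle none ⟨x, hx⟩, hsingle none ⟨x, hx⟩⟩
    · apply iSup₂_le
      intro j hj x hx
      have hx' : x ∈ F (some ⟨j, Finset.mem_range.mp hj⟩) := hx
      exact ⟨Pi.mulSingle (some ⟨j, Finset.mem_range.mp hj⟩) ⟨x, hx'⟩, hsingle _ ⟨x, hx'⟩⟩
  have hc1 : Nat.card (∀ i, ↥(F i)) = Nat.card Ψ.ker * Nat.card V := by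
    have h1 := Subgroup.card_mul_index Ψ.ker
    rw [Subgroup.index_ker, hrange, Subgroup.card_top] at h1
    exact h1.symm
  let ΨC : (Option (Fin p) → ↥C) →* ↥C :=
    { toFun := fun g => ∏ i, g i
      map_one' := by simp
      map_mul' := fun f g => by simp [Finset.prod_mul_distrib] }
  have hΨCs : Function.Surjective ΨC := by
    intro c
    refine ⟨Pi.mulSingle none c, ?_⟩
    show ∏ i, (Pi.mulSingle none c : Option (Fin p) → ↥C) i = c
    rw [Finset.prod_eq_single none]
    · rw [Pi.mulSingle_eq_same]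
    · intro i' _ hne
      rw [Pi.mulSingle_eq_of_ne hne]
    · intro h
      exact absurd (Finset.mem_univ _) h
  have hc2 : Nat.card (Option (Fin p) → ↥C) = Nat.card ΨC.ker * Nat.card ↥C := by
    have h1 := Subgroup.card_mul_index ΨC.ker
    rw [Subgroup.index_ker, MonoidHom.range_eq_top.mpr hΨCs, Subgroup.card_top] at h1
    exact h1.symm
  have hc3 : Nat.card Ψ.ker = Nat.card ΨC.ker := by
    apply Nat.card_congr
    exact
      { toFun := fun f =>
          ⟨fun i => ⟨((f : ∀ i, ↥(F i)) i : V), hker f (MonoidHom.mem_ker.mp f.2) i⟩, by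
            rw [MonoidHom.mem_ker]
            apply Subtype.ext
            have h0 : ∏ i, ((f : ∀ i, ↥(F i)) i : V) = 1 := MonoidHom.mem_ker.mp f.2
            show ((∏ i, (⟨((f : ∀ i, ↥(F i)) i : V), hker f (MonoidHom.mem_ker.mp f.2) i⟩ : ↥C)
              : ↥C) : V) = 1
            rw [Subgroup.val_finsetProd]
            exact h0⟩
        invFun := fun g =>
          ⟨fun i => ⟨(((g : Option (Fin p) → ↥C) i : ↥C) : V),
              hCF i ((g : Option (Fin p) → ↥C) i).2⟩, by
            rw [MonoidHom.mem_ker]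
            have h0 : ∏ i, (g : Option (Fin p) → ↥C) i = 1 := MonoidHom.mem_ker.mp g.2
            have h1 := congrArg Subtype.val h0
            rw [Subgroup.val_finsetProd] at h1
            exact h1⟩
        left_inv := fun f => by
          apply Subtype.ext
          funext i
          rfl
        right_inv := fun g => by
          apply Subtype.ext
          funext i
          rfl }
  have hc4 : Nat.card (∀ i, ↥(F i)) = ∏ i, Nat.card ↥(F i) := Nat.card_pi
  have hc5 : Nat.card (Option (Fin p) → ↥C) = Nat.card ↥C ^ (p + 1) := by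
    rw [Nat.card_fun]
    simp
  have hc6 : ∏ i, Nat.card ↥(F i)
      = Nat.card ↥(fixSub β) * ∏ j ∈ Finset.range p, Nat.card ↥(fixSub (α * β ^ j)) := by
    rw [Fintype.prod_option]
    congr 1
    exact Fin.prod_univ_eq_prod_range (fun j => Nat.card ↥(fixSub (α * β ^ j))) p
  have hCpos : 0 < Nat.card ↥C := Nat.card_pos
  rw [← hc6, ← hc4, hc1]
  have h7 : Nat.card ↥C ^ p * Nat.card ↥C = Nat.card Ψ.ker * Nat.card ↥C := by
    rw [← pow_succ, ← hc5, hc2, hc3]
  have h8 := Nat.eq_of_mul_eq_mul_right hCpos h7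
  rw [h8]
  ring

end Comm

section Char

universe u

variable {Q : Type u} [Group Q]

/-- The automorphism induced on the quotient by a characteristic subgroup. -/
noncomputable def quotChar (N : Subgroup Q) [N.Characteristic] : MulAut Q →* MulAut (Q ⧸ N) where
  toFun φ := QuotientGroup.congr N N φ (Subgroup.characteristic_iff_map_eq.mp inferInstance φ)
  map_one' := by
    ext x
    induction x using QuotientGroup.induction_on
    rfl
  map_mul' φ ψ := by
    ext x
    induction x using QuotientGroup.induction_on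
    rfl

theorem quotChar_mk (N : Subgroup Q) [N.Characteristic] (φ : MulAut Q) (x : Q) :
    quotChar N φ (QuotientGroup.mk x) = QuotientGroup.mk (φ x) := rfl

theorem comm_apply {α β : MulAut Q} (hαβ : Commute α β) (x : Q) : α (β x) = β (α x) := by
  have := congrArg (fun g : MulAut Q => g x) hαβ.eq
  simpa [MulAut.mul_apply] using this

/-- Fixed points of a pair of commuting automorphisms of order dividing `p` are multiplicative
along a characteristic subgroup (coprime action). -/
theorem card_fix_mul [Finite Q] {p : ℕ} [Fact p.Prime] (hQ : ¬ p ∣ Nat.card Q)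
    (N : Subgroup Q) [N.Characteristic]
    (α β : MulAut Q) (hαβ : Commute α β) (hα : α ^ p = 1) (hβ : β ^ p = 1) :
    Nat.card ↥(fixSub α ⊓ fixSub β)
      = Nat.card ↥(fixSub (MulAut.characteristic N α) ⊓ fixSub (MulAut.characteristic N β))
        * Nat.card ↥(fixSub (quotChar N α) ⊓ fixSub (quotChar N β)) := by
  classical
  set F := fixSub α ⊓ fixSub β with hF
  let f : ↥F →* Q ⧸ N := (QuotientGroup.mk' N).comp F.subtype
  have hN : ¬ p ∣ Nat.card N := fun h => hQ (h.trans (Subgroup.card_subgroup_dvd_card N))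
  have hαN : ∀ n ∈ N, α n ∈ N :=
    fun n hn => Subgroup.characteristic_iff_le_comap.mp inferInstance α hn
  have hβN : ∀ n ∈ N, β n ∈ N :=
    fun n hn => Subgroup.characteristic_iff_le_comap.mp inferInstance β hn
  have hrange : f.range = fixSub (quotChar N α) ⊓ fixSub (quotChar N β) := by
    apply le_antisymm
    · rintro _ ⟨⟨x, hx⟩, rfl⟩
      obtain ⟨h1, h2⟩ := Subgroup.mem_inf.mp hx
      rw [mem_fixSub] at h1 h2
      refine Subgroup.mem_inf.mpr ⟨?_, ?_⟩
      · rw [mem_fixSub]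
        show quotChar N α (QuotientGroup.mk x) = QuotientGroup.mk x
        rw [quotChar_mk, h1]
      · rw [mem_fixSub]
        show quotChar N β (QuotientGroup.mk x) = QuotientGroup.mk x
        rw [quotChar_mk, h2]
    · intro y hy
      obtain ⟨h1, h2⟩ := Subgroup.mem_inf.mp hy
      rw [mem_fixSub] at h1 h2
      obtain ⟨x, rfl⟩ := QuotientGroup.mk_surjective y
      rw [quotChar_mk] at h1 h2
      have hx1 : x⁻¹ * α x ∈ N := QuotientGroup.eq.mp h1.symm
      have hx1' : x⁻¹ * β x ∈ N := QuotientGroup.eq.mp h2.symm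
      obtain ⟨n, hn, hfix⟩ := exists_fixed_in_coset α hα N hN hαN x hx1
      have hx2 : (x * n)⁻¹ * β (x * n) ∈ N ⊓ fixSub α := by
        refine Subgroup.mem_inf.mpr ⟨?_, ?_⟩
        · have e : (x * n)⁻¹ * β (x * n) = n⁻¹ * (x⁻¹ * β x) * β n := by
            rw [map_mul]; group
          rw [e]
          exact mul_mem (mul_mem (inv_mem hn) hx1') (hβN n hn)
        · rw [mem_fixSub, map_mul, map_inv, hfix, comm_apply hαβ, hfix]
      have hN1 : ¬ p ∣ Nat.card ↥(N ⊓ fixSub α) :=
        fun h => hN (h.trans (Subgroup.card_dvd_of_le inf_le_left))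
      have hβN1 : ∀ m ∈ N ⊓ fixSub α, β m ∈ N ⊓ fixSub α := by
        intro m hm
        obtain ⟨hm1, hm2⟩ := Subgroup.mem_inf.mp hm
        rw [mem_fixSub] at hm2
        refine Subgroup.mem_inf.mpr ⟨hβN m hm1, ?_⟩
        rw [mem_fixSub, comm_apply hαβ, hm2]
      obtain ⟨n₁, hn₁, hfix₁⟩ :=
        exists_fixed_in_coset β hβ (N ⊓ fixSub α) hN1 hβN1 (x * n) hx2
      have hn₁' := Subgroup.mem_inf.mp hn₁
      have hmem : x * n * n₁ ∈ F := by
        refine Subgroup.mem_inf.mpr ⟨?_, ?_⟩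
        · rw [mem_fixSub, map_mul, hfix, (mem_fixSub _ _).mp hn₁'.2]
        · rw [mem_fixSub]
          exact hfix₁
      refine ⟨⟨x * n * n₁, hmem⟩, ?_⟩
      show (QuotientGroup.mk (x * n * n₁) : Q ⧸ N) = QuotientGroup.mk x
      rw [QuotientGroup.eq]
      have e : (x * n * n₁)⁻¹ * x = (n * n₁)⁻¹ := by group
      rw [e]
      exact inv_mem (mul_mem hn hn₁'.1)
  have hcard : Nat.card ↥F = Nat.card f.ker * Nat.card f.range := by
    have h1 := Subgroup.card_mul_index f.ker
    rw [Subgroup.index_ker] at h1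
    exact h1.symm
  have hker : Nat.card f.ker
      = Nat.card ↥(fixSub (MulAut.characteristic N α) ⊓ fixSub (MulAut.characteristic N β)) := by
    apply Nat.card_congr
    exact
      { toFun := fun x =>
          ⟨⟨((x : ↥F) : Q), (QuotientGroup.eq_one_iff _).mp (MonoidHom.mem_ker.mp x.2)⟩, by
            obtain ⟨h1, h2⟩ := Subgroup.mem_inf.mp (x : ↥F).2
            rw [mem_fixSub] at h1 h2
            refine Subgroup.mem_inf.mpr ⟨?_, ?_⟩
            · rw [mem_fixSub]
              apply Subtype.ext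
              exact h1
            · rw [mem_fixSub]
              apply Subtype.ext
              exact h2⟩
        invFun := fun y =>
          ⟨⟨((y : ↥N) : Q), by
            obtain ⟨h1, h2⟩ := Subgroup.mem_inf.mp y.2
            rw [mem_fixSub] at h1 h2
            exact Subgroup.mem_inf.mpr ⟨(mem_fixSub _ _).mpr (congrArg Subtype.val h1),
              (mem_fixSub _ _).mpr (congrArg Subtype.val h2)⟩⟩, by
            rw [MonoidHom.mem_ker]
            exact (QuotientGroup.eq_one_iff _).mpr (y : ↥N).2⟩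
        left_inv := fun x => rfl
        right_inv := fun y => rfl }
  rw [hcard, hker, hrange]

/-- The Brauer–Wielandt formula for `q`-groups (induction along the centre). -/
theorem bw_pgroup_aux {p : ℕ} [Fact p.Prime] (q : ℕ) [Fact q.Prime] :
    ∀ (n : ℕ) (Q : Type u) [Group Q] [Finite Q], Nat.card Q = n → IsPGroup q Q →
      ¬ p ∣ Nat.card Q → ∀ (α β : MulAut Q), Commute α β → α ^ p = 1 → β ^ p = 1 →
      Nat.card Q * Nat.card ↥(fixSub α ⊓ fixSub β) ^ p
        = Nat.card ↥(fixSub β) * ∏ j ∈ Finset.range p, Nat.card ↥(fixSub (α * β ^ j)) := by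
  intro n
  induction n using Nat.strong_induction_on with
  | _ n ih =>
  intro Q _ _ hn hQq hQ α β hαβ hα hβ
  subst hn
  by_cases hcomm : ∀ x y : Q, x * y = y * x
  · letI : CommGroup Q := { ‹Group Q› with mul_comm := hcomm }
    exact bw_comm hQ α β hαβ hα hβ
  · have hZne : Subgroup.center Q ≠ ⊤ := by
      intro h
      apply hcomm
      intro x y
      have hx : x ∈ Subgroup.center Q := by rw [h]; trivial
      exact (Subgroup.mem_center_iff.mp hx y).symm
    have hnt : Nontrivial Q := by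
      by_contra h
      rw [not_nontrivial_iff_subsingleton] at h
      exact hcomm (fun x y => Subsingleton.elim _ _)
    have hZnt : Nontrivial (Subgroup.center Q) := hQq.center_nontrivial
    have m0 : Nat.card Q = Nat.card (Q ⧸ Subgroup.center Q) * Nat.card (Subgroup.center Q) :=
      Subgroup.card_eq_card_quotient_mul_card_subgroup _
    have hcZ : Nat.card (Subgroup.center Q) < Nat.card Q := by
      by_contra h
      exact hZne (Subgroup.eq_top_of_le_card _ (not_lt.mp h))
    have hcQZ : Nat.card (Q ⧸ Subgroup.center Q) < Nat.card Q := by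
      have h2 : 1 < Nat.card (Subgroup.center Q) := Finite.one_lt_card
      have h0 : 0 < Nat.card (Q ⧸ Subgroup.center Q) := Nat.card_pos
      nlinarith
    have hpZ : ¬ p ∣ Nat.card (Subgroup.center Q) :=
      fun h => hQ (h.trans (Subgroup.card_subgroup_dvd_card _))
    have hpQZ : ¬ p ∣ Nat.card (Q ⧸ Subgroup.center Q) :=
      fun h => hQ (h.trans (Subgroup.card_quotient_dvd_card _))
    have hpow : ∀ j : ℕ, (α * β ^ j) ^ p = 1 := by
      intro j
      rw [(hαβ.pow_right _).mul_pow, hα, ← pow_mul, mul_comm, pow_mul, hβ, one_pow, one_mul]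
    have ihZ := ih _ hcZ ↥(Subgroup.center Q) rfl (hQq.to_subgroup _) hpZ
      (MulAut.characteristic (Subgroup.center Q) α) (MulAut.characteristic (Subgroup.center Q) β)
      (hαβ.map _) (by rw [← map_pow, hα, map_one]) (by rw [← map_pow, hβ, map_one])
    have ihQ := ih _ hcQZ (Q ⧸ Subgroup.center Q) rfl (hQq.to_quotient _) hpQZ
      (quotChar (Subgroup.center Q) α) (quotChar (Subgroup.center Q) β)
      (hαβ.map _) (by rw [← map_pow, hα, map_one]) (by rw [← map_pow, hβ, map_one])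
    have m1 := card_fix_mul hQ (Subgroup.center Q) α β hαβ hα hβ
    have m2 := card_fix_mul hQ (Subgroup.center Q) β β (Commute.refl β) hβ hβ
    have m3 : ∀ j : ℕ, Nat.card ↥(fixSub (α * β ^ j))
        = Nat.card ↥(fixSub (MulAut.characteristic (Subgroup.center Q) α
            * MulAut.characteristic (Subgroup.center Q) β ^ j))
          * Nat.card ↥(fixSub (quotChar (Subgroup.center Q) α
            * quotChar (Subgroup.center Q) β ^ j)) := by
      intro j
      have h := card_fix_mul hQ (Subgroup.center Q) (α * β ^ j) (α * β ^ j) (Commute.refl _)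
        (hpow j) (hpow j)
      simp only [inf_idem, map_mul, map_pow] at h
      exact h
    simp only [inf_idem] at m2
    have key : ∀ (z qz cz cq bz bq Pz Pq : ℕ), z * cz ^ p = bz * Pz → qz * cq ^ p = bq * Pq →
        qz * z * (cz ^ p * cq ^ p) = bz * bq * (Pz * Pq) := by
      intro z qz cz cq bz bq Pz Pq h1 h2
      calc qz * z * (cz ^ p * cq ^ p) = (z * cz ^ p) * (qz * cq ^ p) := by ring
        _ = (bz * Pz) * (bq * Pq) := by rw [h1, h2]
        _ = bz * bq * (Pz * Pq) := by ring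
    rw [m1, m2, Finset.prod_congr rfl (fun j _ => m3 j), Finset.prod_mul_distrib, mul_pow, m0]
    exact key _ _ _ _ _ _ _ _ ihZ ihQ

end Char

section Ambient

open Cfsg.Agent.Lib.Helper31.InvSylow
open Cfsg.Agent.Lib.Helper24

universe v

variable {G : Type v} [Group G]

theorem card_eq_of_mem_iff {S : Subgroup G} (T : Subgroup ↥S) (T' : Subgroup G) (hT' : T' ≤ S)
    (h : ∀ x : ↥S, x ∈ T ↔ (x : G) ∈ T') : Nat.card T = Nat.card T' := by
  apply Nat.card_congr
  exact
    { toFun := fun x => ⟨((x : ↥S) : G), (h x).mp x.2⟩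
      invFun := fun y => ⟨⟨(y : G), hT' y.2⟩, (h ⟨(y : G), hT' y.2⟩).mpr y.2⟩
      left_inv := fun x => rfl
      right_inv := fun y => rfl }

theorem conj_eq_iff_mem_centralizer (d x : G) :
    d * x * d⁻¹ = x ↔ x ∈ Subgroup.centralizer ({d} : Set G) := by
  rw [Subgroup.mem_centralizer_singleton_iff, mul_inv_eq_iff_eq_mul]
  exact eq_comm

/-- The Brauer–Wielandt formula for a `q`-subgroup normalized by two commuting elements of
order dividing `p`. -/
theorem bw_qsubgroup [Finite G] {p : ℕ} [Fact p.Prime] (q : ℕ) [Fact q.Prime] (S : Subgroup G)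
    (hSq : IsPGroup q S) (hS : ¬ p ∣ Nat.card S) (a b : G) (hab : a * b = b * a)
    (hap : a ^ p = 1) (hbp : b ^ p = 1)
    (haS : a ∈ Subgroup.normalizer (S : Set G)) (hbS : b ∈ Subgroup.normalizer (S : Set G)) :
    Nat.card S * Nat.card ↥(S ⊓ Subgroup.centralizer {a} ⊓ Subgroup.centralizer {b}) ^ p
      = Nat.card ↥(S ⊓ Subgroup.centralizer {b})
        * ∏ j ∈ Finset.range p, Nat.card ↥(S ⊓ Subgroup.centralizer {a * b ^ j}) := by
  set φ := ConjAction.conjHom (Subgroup.normalizer (S : Set G)) S le_rfl with hφ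
  have hαβ : Commute (φ ⟨a, haS⟩) (φ ⟨b, hbS⟩) := by
    show φ ⟨a, haS⟩ * φ ⟨b, hbS⟩ = φ ⟨b, hbS⟩ * φ ⟨a, haS⟩
    rw [← map_mul, ← map_mul]
    congr 1
    exact Subtype.ext hab
  have hα : (φ ⟨a, haS⟩) ^ p = 1 := by
    rw [← map_pow]
    have h1 : (⟨a, haS⟩ : ↥(Subgroup.normalizer (S : Set G))) ^ p = 1 := Subtype.ext hap
    rw [h1, map_one]
  have hβ : (φ ⟨b, hbS⟩) ^ p = 1 := by
    rw [← map_pow]
    have h1 : (⟨b, hbS⟩ : ↥(Subgroup.normalizer (S : Set G))) ^ p = 1 := Subtype.ext hbp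
    rw [h1, map_one]
  have key := bw_pgroup_aux (p := p) q (Nat.card S) ↥S rfl hSq hS _ _ hαβ hα hβ
  have hmem : ∀ (d : G) (hd : d ∈ Subgroup.normalizer (S : Set G)) (x : ↥S),
      x ∈ fixSub (φ ⟨d, hd⟩) ↔ (x : G) ∈ Subgroup.centralizer ({d} : Set G) := by
    intro d hd x
    rw [mem_fixSub, ← conj_eq_iff_mem_centralizer, Subtype.ext_iff]
    rfl
  have hfix : ∀ (d : G) (hd : d ∈ Subgroup.normalizer (S : Set G)),
      Nat.card ↥(fixSub (φ ⟨d, hd⟩)) = Nat.card ↥(S ⊓ Subgroup.centralizer {d}) := by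
    intro d hd
    apply card_eq_of_mem_iff _ _ inf_le_left
    intro x
    rw [hmem d hd x, Subgroup.mem_inf]
    exact ⟨fun h => ⟨x.2, h⟩, fun h => h.2⟩
  have hfix2 : Nat.card ↥(fixSub (φ ⟨a, haS⟩) ⊓ fixSub (φ ⟨b, hbS⟩))
      = Nat.card ↥(S ⊓ Subgroup.centralizer {a} ⊓ Subgroup.centralizer {b}) := by
    apply card_eq_of_mem_iff _ _ (inf_le_left.trans inf_le_left)
    intro x
    rw [Subgroup.mem_inf, hmem a haS x, hmem b hbS x, Subgroup.mem_inf, Subgroup.mem_inf]
    exact ⟨fun h => ⟨⟨x.2, h.1⟩, h.2⟩, fun h => ⟨h.1.2, h.2⟩⟩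
  have hmul : ∀ j : ℕ, φ ⟨a, haS⟩ * φ ⟨b, hbS⟩ ^ j
      = φ ⟨a * b ^ j, mul_mem haS (pow_mem hbS j)⟩ := by
    intro j
    rw [← map_pow, ← map_mul]
    rfl
  rw [hfix2, hfix b hbS] at key
  rw [key]
  congr 1
  apply Finset.prod_congr rfl
  intro j _
  rw [hmul j, hfix]

/-- Fixed points of an invariant Sylow subgroup form a Sylow subgroup of the fixed points. -/
theorem card_sylow_fix [Finite G] {p : ℕ} [Fact p.Prime] (q : ℕ) [Fact q.Prime]
    (K S : Subgroup G) (d : G) (hd : IsPGroup p (Subgroup.zpowers d)) (hK : ¬ p ∣ Nat.card K)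
    (hdK : ∀ k ∈ K, d * k * d⁻¹ ∈ K) (hSK : S ≤ K)
    (hSc : Nat.card S = q ^ (Nat.card K).factorization q) (hdS : ∀ s ∈ S, d * s * d⁻¹ ∈ S) :
    Nat.card ↥(S ⊓ Subgroup.centralizer {d})
      = q ^ (Nat.card ↥(K ⊓ Subgroup.centralizer {d})).factorization q := by
  have hDK : ∀ a ∈ Subgroup.zpowers d, ∀ k ∈ K, a * k * a⁻¹ ∈ K := by
    have h1 : d ∈ Subgroup.normalizer (K : Set G) := mem_normalizer_of_conj_mem K d hdK
    intro a ha k hk
    have h2 : a ∈ Subgroup.normalizer (K : Set G) := (Subgroup.zpowers_le.mpr h1) ha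
    exact (Subgroup.mem_normalizer_iff.mp h2 k).mp hk
  have hDS : ∀ a ∈ Subgroup.zpowers d, ∀ s ∈ S, a * s * a⁻¹ ∈ S := by
    have h1 : d ∈ Subgroup.normalizer (S : Set G) := mem_normalizer_of_conj_mem S d hdS
    intro a ha k hk
    have h2 : a ∈ Subgroup.normalizer (S : Set G) := (Subgroup.zpowers_le.mpr h1) ha
    exact (Subgroup.mem_normalizer_iff.mp h2 k).mp hk
  have hDc : ∀ a ∈ Subgroup.zpowers d, ∀ x ∈ Subgroup.centralizer ({d} : Set G),
      a * x = x * a := by
    intro a ha x hx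
    have h1 : d ∈ Subgroup.centralizer ({x} : Set G) := by
      rw [Subgroup.mem_centralizer_singleton_iff]
      exact (Subgroup.mem_centralizer_singleton_iff.mp hx).symm
    have h2 := (Subgroup.zpowers_le.mpr h1) ha
    exact Subgroup.mem_centralizer_singleton_iff.mp h2
  have hKD : ¬ p ∣ Nat.card ↥(K ⊓ Subgroup.centralizer {d}) :=
    fun h => hK (h.trans (Subgroup.card_dvd_of_le inf_le_left))
  obtain ⟨T, hTK, hTc, -⟩ := exists_invariant_sylow (⊥ : Subgroup G)
    (K ⊓ Subgroup.centralizer {d}) (IsPGroup.of_bot) hKD (by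
      intro a ha k hk
      rw [Subgroup.mem_bot] at ha
      subst ha
      simpa using hk) q
  have hTq : IsPGroup q T := IsPGroup.of_card hTc
  have hTD : ∀ a ∈ Subgroup.zpowers d, ∀ t ∈ T, a * t * a⁻¹ ∈ T := by
    intro a ha t ht
    have h1 := hDc a ha t (Subgroup.mem_inf.mp (hTK ht)).2
    rw [h1, mul_inv_cancel_right]
    exact ht
  obtain ⟨S', hTS', hS'K, hS'c, hS'D⟩ := exists_invariant_sylow_ge (Subgroup.zpowers d) K hd hK
    hDK q T (hTK.trans inf_le_left) hTq hTD
  obtain ⟨c, hcK, hcD, hmap⟩ := invariant_sylow_conj (Subgroup.zpowers d) K hd hK hDK q S' S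
    hS'K hSK hS'c hSc hS'D hDS
  have hle : T.map (MulAut.conj c).toMonoidHom ≤ S ⊓ Subgroup.centralizer {d} := by
    rintro _ ⟨t, ht, rfl⟩
    refine Subgroup.mem_inf.mpr ⟨?_, ?_⟩
    · rw [← hmap]
      exact Subgroup.mem_map_of_mem _ (hTS' ht)
    · rw [Subgroup.mem_centralizer_singleton_iff]
      have h1 : d * c = c * d := hcD d (Subgroup.mem_zpowers d)
      have h2 : t * d = d * t :=
        Subgroup.mem_centralizer_singleton_iff.mp (Subgroup.mem_inf.mp (hTK ht)).2
      have h3 : c⁻¹ * d * c = d := by rw [mul_assoc, h1, inv_mul_cancel_left]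
      show c * t * c⁻¹ * d = d * (c * t * c⁻¹)
      calc c * t * c⁻¹ * d = c * t * (c⁻¹ * d * c) * c⁻¹ := by group
        _ = c * (t * d) * c⁻¹ := by rw [h3]; group
        _ = c * (d * t) * c⁻¹ := by rw [h2]
        _ = (c * d) * t * c⁻¹ := by group
        _ = (d * c) * t * c⁻¹ := by rw [h1]
        _ = d * (c * t * c⁻¹) := by group
  have h1 : Nat.card T ≤ Nat.card ↥(S ⊓ Subgroup.centralizer {d}) := by
    have e : Nat.card (T.map (MulAut.conj c).toMonoidHom) = Nat.card T :=
      Subgroup.card_map_of_injective (MulAut.conj c).injective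
    rw [← e]
    exact Subgroup.card_le_of_le hle
  have hSDq : IsPGroup q ↥(S ⊓ Subgroup.centralizer {d}) :=
    (IsPGroup.of_card hSc).to_le inf_le_left
  have h2 := card_le_of_isPGroup (S ⊓ Subgroup.centralizer {d}) (K ⊓ Subgroup.centralizer {d})
    hSDq (inf_le_inf_right _ hSK)
  rw [← hTc] at h2 ⊢
  exact le_antisymm h2 h1

/-- **Brauer–Wielandt order formula** (rank two, element form): if `a, b` are commuting elements
of order dividing `p` of an abelian `p`-subgroup `E` normalizing the `p'`-subgroup `K`, then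
`|K| * |C_K(a) ∩ C_K(b)|^p = |C_K(b)| * ∏_{j < p} |C_K(a b^j)|`. -/
theorem bw_ambient [Finite G] {p : ℕ} [Fact p.Prime] (E K : Subgroup G) (hE : IsPGroup p E)
    (hEc : ∀ x ∈ E, ∀ y ∈ E, x * y = y * x) (hK : ¬ p ∣ Nat.card K)
    (hEK : ∀ e ∈ E, ∀ k ∈ K, e * k * e⁻¹ ∈ K) (a b : G) (ha : a ∈ E) (hb : b ∈ E)
    (hap : a ^ p = 1) (hbp : b ^ p = 1) :
    Nat.card K * Nat.card ↥(K ⊓ Subgroup.centralizer {a} ⊓ Subgroup.centralizer {b}) ^ p
      = Nat.card ↥(K ⊓ Subgroup.centralizer {b})
        * ∏ j ∈ Finset.range p, Nat.card ↥(K ⊓ Subgroup.centralizer {a * b ^ j}) := by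
  classical
  have hab : a * b = b * a := hEc a ha b hb
  have hpos : ∀ L : Subgroup G, Nat.card L ≠ 0 := fun L => Nat.card_pos.ne'
  have hprodne : ∏ j ∈ Finset.range p, Nat.card ↥(K ⊓ Subgroup.centralizer {a * b ^ j}) ≠ 0 :=
    Finset.prod_ne_zero_iff.mpr (fun j _ => hpos _)
  have hL : Nat.card K * Nat.card ↥(K ⊓ Subgroup.centralizer {a} ⊓ Subgroup.centralizer {b}) ^ p
      ≠ 0 := mul_ne_zero (hpos _) (pow_ne_zero _ (hpos _))
  have hR : Nat.card ↥(K ⊓ Subgroup.centralizer {b})
      * ∏ j ∈ Finset.range p, Nat.card ↥(K ⊓ Subgroup.centralizer {a * b ^ j}) ≠ 0 :=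
    mul_ne_zero (hpos _) hprodne
  apply Nat.eq_of_factorization_eq hL hR
  intro q
  by_cases hq : q.Prime
  swap
  · rw [Nat.factorization_eq_zero_of_not_prime _ hq, Nat.factorization_eq_zero_of_not_prime _ hq]
  have : Fact q.Prime := ⟨hq⟩
  obtain ⟨S, hSK, hSc, hSE⟩ := exists_invariant_sylow E K hE hK hEK q
  have hSq : IsPGroup q S := IsPGroup.of_card hSc
  have hSp : ¬ p ∣ Nat.card S := fun h => hK (h.trans (Subgroup.card_dvd_of_le hSK))
  have hzp : ∀ d ∈ E, IsPGroup p (Subgroup.zpowers d) :=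
    fun d hd => hE.to_le (Subgroup.zpowers_le.mpr hd)
  have h1 : ∀ d ∈ E, Nat.card ↥(S ⊓ Subgroup.centralizer {d})
      = q ^ (Nat.card ↥(K ⊓ Subgroup.centralizer {d})).factorization q :=
    fun d hd => card_sylow_fix q K S d (hzp d hd) hK (hEK d hd) hSK hSc (hSE d hd)
  have hinv : ∀ L : Subgroup G, (∀ l ∈ L, b * l * b⁻¹ ∈ L) →
      ∀ l ∈ L ⊓ Subgroup.centralizer {a}, b * l * b⁻¹ ∈ L ⊓ Subgroup.centralizer {a} := by
    intro L hLb l hl
    obtain ⟨hl1, hl2⟩ := Subgroup.mem_inf.mp hl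
    refine Subgroup.mem_inf.mpr ⟨hLb l hl1, ?_⟩
    rw [Subgroup.mem_centralizer_singleton_iff] at hl2 ⊢
    have h3 : b⁻¹ * a = a * b⁻¹ := by
      rw [inv_mul_eq_iff_eq_mul, ← mul_assoc, ← hab, mul_inv_cancel_right]
    calc b * l * b⁻¹ * a = b * l * (b⁻¹ * a) := by group
      _ = b * (l * a) * b⁻¹ := by rw [h3]; group
      _ = (b * a) * l * b⁻¹ := by rw [hl2]; group
      _ = a * (b * l * b⁻¹) := by rw [← hab]; group
  have h2 : Nat.card ↥(S ⊓ Subgroup.centralizer {a} ⊓ Subgroup.centralizer {b})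
      = q ^ (Nat.card ↥(K ⊓ Subgroup.centralizer {a} ⊓ Subgroup.centralizer {b})).factorization q := by
    apply card_sylow_fix q (K ⊓ Subgroup.centralizer {a}) (S ⊓ Subgroup.centralizer {a}) b
      (hzp b hb)
    · exact fun h => hK (h.trans (Subgroup.card_dvd_of_le inf_le_left))
    · exact hinv K (hEK b hb)
    · exact inf_le_inf_right _ hSK
    · exact h1 a ha
    · exact hinv S (hSE b hb)
  have hbw := bw_qsubgroup (p := p) q S hSq hSp a b hab hap hbp
    (mem_normalizer_of_conj_mem S a (hSE a ha)) (mem_normalizer_of_conj_mem S b (hSE b hb))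
  have h3 : ∀ j ∈ Finset.range p, Nat.card ↥(S ⊓ Subgroup.centralizer {a * b ^ j})
      = q ^ (Nat.card ↥(K ⊓ Subgroup.centralizer {a * b ^ j})).factorization q :=
    fun j _ => h1 _ (mul_mem ha (pow_mem hb j))
  rw [hSc, h2, h1 b hb, Finset.prod_congr rfl h3, Finset.prod_pow_eq_pow_sum, ← pow_mul,
    ← pow_add, ← pow_add] at hbw
  have hexp := Nat.pow_right_injective hq.two_le hbw
  rw [Nat.factorization_mul (hpos _) (pow_ne_zero _ (hpos _)), Nat.factorization_pow,
    Nat.factorization_mul (hpos _) hprodne, Nat.factorization_prod (fun j _ => hpos _)]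
  simp only [Finsupp.add_apply, Finsupp.smul_apply, Finsupp.finsetSum_apply, smul_eq_mul]
  linarith

end Ambient

end Cfsg.Agent.Lib.Helper22.BrauerWielandt
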