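import Mathlib
import Cfsg.Agent.Lib.Helper12.SNStmt

set_option autoImplicit false

/-!
helper22: piece CACENT of helper12's S4073 call.
-/

namespace Cfsg.Agent.Lib.Helper22.SNCACENT

open Cfsg.Agent.Lib.Helper12.SNDef Cfsg.Agent.Lib.Helper12.SNStmt

universe u

theorem main : Cfsg.Agent.Lib.Helper12.SNStmt.CACent.{u} := by
  intro X _ _ w A q hsp
  obtain ⟨hq, hAn, hAc, ⟨k, hk⟩, hqA, hcompl, hxq, hfpf⟩ := hsp
  have hdec : ∀ g : X, ∃ h ∈ Subgroup.zpowers w, ∃ a ∈ A, g = h * a := by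
    intro g
    obtain ⟨⟨⟨h, hh⟩, ⟨a, ha⟩⟩, hg⟩ := hcompl.2 g
    exact ⟨h, hh, a, ha, hg.symm⟩
  have hdisj : ∀ g : X, g ∈ Subgroup.zpowers w → g ∈ A → g = 1 := by
    intro g h1 h2
    have := hcompl.disjoint
    rw [Subgroup.disjoint_def] at this
    exact this h1 h2
  have ha1 : ∀ a ∈ A, w * a = a * w → a = 1 := by
    intro a ha hc
    by_contra hne
    apply hfpf a ha hne
    rw [hc]
    group
  have hwcomm : ∀ h ∈ Subgroup.zpowers w, w * h = h * w := by
    intro h hh
    obtain ⟨n, rfl⟩ := Subgroup.mem_zpowers_iff.mp hh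
    exact (Commute.zpow_right (Commute.refl w) n).eq
  constructor
  · intro c hc
    obtain ⟨h, hh, a, ha, rfl⟩ := hdec c
    have hcw : (h * a) * w = w * (h * a) := (Subgroup.mem_center_iff.mp hc w).symm
    have h1 : h * (a * w) = h * (w * a) := by
      calc h * (a * w) = h * a * w := by rw [mul_assoc]
        _ = w * (h * a) := hcw
        _ = w * h * a := by rw [mul_assoc]
        _ = h * w * a := by rw [hwcomm h hh]
        _ = h * (w * a) := by rw [mul_assoc]
    rw [ha1 a ha (mul_left_cancel h1).symm, mul_one]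
    exact hh
  · intro z hz
    obtain ⟨h, hh, a, ha, rfl⟩ := hdec z
    have haN : a ∈ Subgroup.normalizer ((Subgroup.zpowers w : Subgroup X) : Set X) := by
      have h1 : h⁻¹ ∈ Subgroup.normalizer ((Subgroup.zpowers w : Subgroup X) : Set X) :=
        Subgroup.le_normalizer (Subgroup.inv_mem _ hh)
      have := Subgroup.mul_mem _ h1 hz
      simpa using this
    have h2 : a * w * a⁻¹ ∈ Subgroup.zpowers w :=
      (Subgroup.mem_normalizer_iff.mp haN w).mp (Subgroup.mem_zpowers w)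
    have h3 : a * w * a⁻¹ * w⁻¹ ∈ Subgroup.zpowers w :=
      Subgroup.mul_mem _ h2 (Subgroup.inv_mem _ (Subgroup.mem_zpowers w))
    have h4 : a * w * a⁻¹ * w⁻¹ ∈ A := by
      have : a * (w * a⁻¹ * w⁻¹) ∈ A := A.mul_mem ha (hAn.conj_mem _ (A.inv_mem ha) w)
      simpa [mul_assoc] using this
    have h5 := hdisj _ h3 h4
    have h6 : a * w * a⁻¹ = w := by rwa [mul_inv_eq_one] at h5
    have h7 : a * w = w * a := by rwa [mul_inv_eq_iff_eq_mul] at h6
    rw [ha1 a ha h7.symm, mul_one]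
    exact hh

end Cfsg.Agent.Lib.Helper22.SNCACENT
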