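import Mathlib
import Cfsg.Agent.Lib.Helper12.SNStmt

set_option autoImplicit false

/-!
helper22: piece CASYL of helper12's S4073 call.
-/

namespace Cfsg.Agent.Lib.Helper22.SNCASYL

open Cfsg.Agent.Lib.Helper12.SNDef Cfsg.Agent.Lib.Helper12.SNStmt

universe u

theorem main : Cfsg.Agent.Lib.Helper12.SNStmt.CASyl.{u} := by
  intro X _ _ w A q hsp R hR hwR
  obtain ⟨hq, hAn, hAc, ⟨k, hk⟩, hqA, hcompl, hxq, hfpf⟩ := hsp
  have : Fact q.Prime := ⟨hq⟩
  have hcard : Nat.card (Subgroup.zpowers w) * Nat.card A = Nat.card X := hcompl.card_mul_card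
  have hzc : Nat.card (Subgroup.zpowers w) = q ^ k := by rw [Nat.card_zpowers, hk]
  obtain ⟨j, hj⟩ := IsPGroup.iff_card.mp hR
  have hdvd : Nat.card R ∣ Nat.card X := Subgroup.card_subgroup_dvd_card R
  rw [hj, ← hcard, hzc] at hdvd
  have hcop : Nat.Coprime (q ^ j) (Nat.card A) :=
    Nat.Coprime.pow_left j ((Nat.Prime.coprime_iff_not_dvd hq).mpr hqA)
  have hdvd2 : q ^ j ∣ q ^ k := hcop.dvd_of_dvd_mul_right hdvd
  have hle : Nat.card R ≤ Nat.card (Subgroup.zpowers w) := by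
    rw [hj, hzc]
    exact Nat.le_of_dvd (pow_pos hq.pos k) hdvd2
  exact (Subgroup.eq_of_le_of_card_ge hwR hle).ge

end Cfsg.Agent.Lib.Helper22.SNCASYL
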