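import Mathlib
import Cfsg.Agent.Lib.Helper12.SNStmt

set_option autoImplicit false

/-!
helper22: piece CBBURN of helper12's S4073 call (Burnside transfer).
-/

namespace Cfsg.Agent.Lib.Helper22.SNCBBURN

open Cfsg.Agent.Lib.Helper12.SNDef Cfsg.Agent.Lib.Helper12.SNStmt

universe u

theorem main : Cfsg.Agent.Lib.Helper12.SNStmt.CBBurn.{u} := by
  intro G _ _ _ hna p _ P hPc hP1
  by_contra hcon
  have hP : Subgroup.normalizer ((P : Subgroup G) : Set G) ≤
      Subgroup.centralizer ((P : Subgroup G) : Set G) := by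
    intro z hz
    by_contra hzc
    exact hcon ⟨z, hz, hzc⟩
  have hcompl := MonoidHom.ker_transferSylow_isComplement' P hP
  have hN : (MonoidHom.transferSylow P hP).ker.Normal := inferInstance
  rcases hN.eq_bot_or_eq_top with h | h
  · rw [h, Subgroup.isComplement'_bot_left] at hcompl
    apply hna
    refine ⟨⟨fun a b => ?_⟩⟩
    have ha : a ∈ (P : Subgroup G) := by rw [hcompl]; exact Subgroup.mem_top a
    have hb : b ∈ (P : Subgroup G) := by rw [hcompl]; exact Subgroup.mem_top b
    exact congrArg Subtype.val (hPc.is_comm.comm ⟨a, ha⟩ ⟨b, hb⟩)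
  · rw [h, Subgroup.isComplement'_top_left] at hcompl
    exact hP1 hcompl

end Cfsg.Agent.Lib.Helper22.SNCBBURN
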