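import Mathlib
import Cfsg.Agent.Lib.Helper12.SNStmt

set_option autoImplicit false

/-!
helper22: piece CBNORM of helper12's S4073 call.
-/

namespace Cfsg.Agent.Lib.Helper22.SNCBNORM

open Cfsg.Agent.Lib.Helper12.SNDef Cfsg.Agent.Lib.Helper12.SNStmt

universe u

theorem main : Cfsg.Agent.Lib.Helper12.SNStmt.CBNorm.{u} := by
  intro G _ x y z hxy hz
  have key : ∀ w : G, w ∈ Subgroup.normalizer ((Subgroup.zpowers y : Subgroup G) : Set G) →
      w * x * w⁻¹ ∈ Subgroup.zpowers x := by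
    intro w hw
    obtain ⟨n, rfl⟩ := Subgroup.mem_zpowers_iff.mp hxy
    have h1 : w * y * w⁻¹ ∈ Subgroup.zpowers y :=
      (Subgroup.mem_normalizer_iff.mp hw y).mp (Subgroup.mem_zpowers y)
    obtain ⟨m, hm⟩ := Subgroup.mem_zpowers_iff.mp h1
    rw [Subgroup.mem_zpowers_iff]
    refine ⟨m, ?_⟩
    have h2 : w * y ^ n * w⁻¹ = (w * y * w⁻¹) ^ n := by
      rw [conj_zpow]
    rw [h2, ← hm, ← zpow_mul, ← zpow_mul, mul_comm]
  rw [Subgroup.mem_normalizer_iff]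
  intro c
  have hzinv : z⁻¹ ∈ Subgroup.normalizer ((Subgroup.zpowers y : Subgroup G) : Set G) :=
    Subgroup.inv_mem _ hz
  have k1 := key z hz
  have k2 := key z⁻¹ hzinv
  simp only [Subgroup.mem_centralizer_iff, Set.mem_singleton_iff, forall_eq]
  constructor
  · intro hc
    obtain ⟨m, hm⟩ := Subgroup.mem_zpowers_iff.mp k2
    have h3 : (z⁻¹ * x * z⁻¹⁻¹) * c = c * (z⁻¹ * x * z⁻¹⁻¹) := by
      rw [← hm]
      exact (Commute.zpow_left (show Commute x c from hc) m).eq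
    calc x * (z * c * z⁻¹) = z * ((z⁻¹ * x * z⁻¹⁻¹) * c) * z⁻¹ := by group
      _ = z * (c * (z⁻¹ * x * z⁻¹⁻¹)) * z⁻¹ := by rw [h3]
      _ = z * c * z⁻¹ * x := by group
  · intro hc
    obtain ⟨m, hm⟩ := Subgroup.mem_zpowers_iff.mp k1
    have h3 : (z * x * z⁻¹) * (z * c * z⁻¹) = (z * c * z⁻¹) * (z * x * z⁻¹) := by
      rw [← hm]
      exact (Commute.zpow_left (show Commute x (z * c * z⁻¹) from hc) m).eq
    calc x * c = z⁻¹ * ((z * x * z⁻¹) * (z * c * z⁻¹)) * z := by group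
      _ = z⁻¹ * ((z * c * z⁻¹) * (z * x * z⁻¹)) * z := by rw [h3]
      _ = c * x := by group

end Cfsg.Agent.Lib.Helper22.SNCBNORM
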