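import Mathlib
import Cfsg.Agent.Lib.Helper52.SpStmt

set_option autoImplicit false

/-! S5171 piece [RAD]: a normal self-centralizing subgroup `R` of a Sylow `p`-subgroup `S` with
`S ∩ n⁻¹ S n ≤ R` for some `n ∈ N_G(R)` is radical in the fusion system of `G` on `S`. -/

namespace Cfsg.Agent.Lib.Helper22.SpRAD

open Cfsg Cfsg.FusionSystem

universe u

theorem radicalOfCore {G : Type u} [Group G] [Finite G] (p : ℕ) [Fact p.Prime] (S : Sylow p G)
    (R : Subgroup G) (hRS : R ≤ (S : Subgroup G))
    (hnorm : ∀ s ∈ (S : Subgroup G), ∀ r ∈ R, s * r * s⁻¹ ∈ R)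
    (hcent : ∀ g : G, (∀ r ∈ R, g * r = r * g) → g ∈ R)
    (hopp : ∃ n ∈ Subgroup.normalizer (R : Set G),
      ∀ x ∈ (S : Subgroup G), n * x * n⁻¹ ∈ (S : Subgroup G) → x ∈ R) :
    (Cfsg.groupFusionSystem (S : Subgroup G)).IsRadical p R := by
  obtain ⟨n, hn, hnx⟩ := hopp
  refine ⟨hRS, ?_⟩
  have hRp : IsPGroup p R := S.isPGroup'.to_le hRS
  -- every element of `Aut_F(R)` is a conjugation
  have hconj : ∀ ν ∈ (groupFusionSystem (S : Subgroup G)).autGroup R,
      ∃ g : G, ∀ x : R, ((ν x : R) : G) = g * x * g⁻¹ := by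
    intro ν hν
    induction hν using Subgroup.closure_induction with
    | mem α hα =>
      obtain ⟨-, -, g, hg⟩ := hα
      exact ⟨g, fun x => hg x⟩
    | one => exact ⟨1, fun x => by simp⟩
    | mul α β _ _ iha ihb =>
      obtain ⟨g, hg⟩ := iha
      obtain ⟨k, hk⟩ := ihb
      refine ⟨g * k, fun x => ?_⟩
      rw [MulAut.mul_apply, hg, hk]
      group
    | inv α _ ih =>
      obtain ⟨g, hg⟩ := ih
      refine ⟨g⁻¹, fun x => ?_⟩
      have h1 := hg (α⁻¹ x)
      rw [MulAut.apply_inv_self] at h1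
      rw [h1]
      group
  -- a conjugating element normalizes `R`
  have hnormalizer : ∀ (ν : MulAut R) (g : G), (∀ x : R, ((ν x : R) : G) = g * x * g⁻¹) →
      g ∈ Subgroup.normalizer (R : Set G) := by
    intro ν g hg
    rw [Subgroup.mem_normalizer_iff]
    intro y
    constructor
    · intro hy
      have := hg ⟨y, hy⟩
      rw [← this]
      exact (ν ⟨y, hy⟩).2
    · intro hy
      have h1 := hg (ν⁻¹ ⟨g * y * g⁻¹, hy⟩)
      rw [MulAut.apply_inv_self] at h1
      have h2 : y = ((ν⁻¹ ⟨g * y * g⁻¹, hy⟩ : R) : G) := by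
        have h3 : g * y * g⁻¹ = g * ((ν⁻¹ ⟨g * y * g⁻¹, hy⟩ : R) : G) * g⁻¹ := h1
        exact mul_left_cancel (mul_right_cancel h3)
      rw [h2]
      exact (ν⁻¹ ⟨g * y * g⁻¹, hy⟩).2
  have hSL : (S : Subgroup G) ≤ Subgroup.normalizer (R : Set G) := by
    intro s hs
    rw [Subgroup.mem_normalizer_iff]
    intro y
    constructor
    · intro hy
      exact hnorm s hs y hy
    · intro hy
      have := hnorm s⁻¹ ((S : Subgroup G).inv_mem hs) _ hy
      simpa [mul_assoc] using this
  -- the map `N_G(R) → Aut_F(R)`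
  have hmemA : ∀ g : Subgroup.normalizer (R : Set G),
      Subgroup.normalizerMonoidHom R g ∈ (groupFusionSystem (S : Subgroup G)).autGroup R := by
    intro g
    exact Subgroup.subset_closure
      ⟨hRS, fun x => hRS (Subgroup.normalizerMonoidHom R g x).2, (g : G), fun x => rfl⟩
  set c' : Subgroup.normalizer (R : Set G) →* (groupFusionSystem (S : Subgroup G)).autGroup R :=
    (Subgroup.normalizerMonoidHom R).codRestrict _ hmemA with hc'
  have hker : IsPGroup p c'.ker := by
    have hle : c'.ker ≤ R.subgroupOf (Subgroup.normalizer (R : Set G)) := by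
      intro x hx
      rw [MonoidHom.mem_ker] at hx
      rw [Subgroup.mem_subgroupOf]
      apply hcent
      intro r hr
      have h1 : (Subgroup.normalizerMonoidHom R x) ⟨r, hr⟩ = ⟨r, hr⟩ := by
        have h2 : ((c' x : (groupFusionSystem (S : Subgroup G)).autGroup R) : MulAut R) = 1 := by
          rw [hx]; rfl
        have h3 : ((c' x : (groupFusionSystem (S : Subgroup G)).autGroup R) : MulAut R) =
            Subgroup.normalizerMonoidHom R x := rfl
        rw [← h3, h2]; rfl
      have h4 : (x : G) * r * (x : G)⁻¹ = r := congrArg Subtype.val h1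
      calc (x : G) * r = (x : G) * r * (x : G)⁻¹ * x := by group
        _ = r * x := by rw [h4]
    exact (hRp.comap_subtype).to_le hle
  apply le_antisymm
  · -- the `p`-core consists of inner automorphisms
    rw [Subgroup.map_le_iff_le_comap]
    apply sSup_le
    rintro N ⟨hNn, hNp⟩ ν hν
    rw [Subgroup.mem_comap]
    -- the preimage of `N` in `N_G(R)` is a normal `p`-subgroup
    have hN0p : IsPGroup p (N.comap c') := hNp.comap_of_ker_isPGroup c' hker
    have hN0n : (N.comap c').Normal := hNn.comap c'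
    set Nt : Subgroup G := (N.comap c').map (Subgroup.normalizer (R : Set G)).subtype with hNt
    have hNtp : IsPGroup p Nt := hN0p.map _
    have hNtnorm : ∀ l ∈ Subgroup.normalizer (R : Set G), ∀ x ∈ Nt, l * x * l⁻¹ ∈ Nt := by
      rintro l hl _ ⟨x0, hx0, rfl⟩
      refine ⟨⟨l, hl⟩ * x0 * ⟨l, hl⟩⁻¹, hN0n.conj_mem x0 hx0 ⟨l, hl⟩, rfl⟩
    have hSNt : (S : Subgroup G) ≤ Subgroup.normalizer (Nt : Set G) := by
      intro s hs
      rw [Subgroup.mem_normalizer_iff]
      intro y
      constructor
      · intro hy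
        exact hNtnorm s (hSL hs) y hy
      · intro hy
        have := hNtnorm s⁻¹ (hSL ((S : Subgroup G).inv_mem hs)) _ hy
        simpa [mul_assoc] using this
    have hNtS : Nt ≤ (S : Subgroup G) := by
      have h1 : IsPGroup p ((S : Subgroup G) ⊔ Nt : Subgroup G) :=
        S.isPGroup'.to_sup_of_normal_right' hNtp hSNt
      have h2 := S.is_maximal' h1 le_sup_left
      rw [← h2]
      exact le_sup_right
    have hNtR : Nt ≤ R := by
      intro x hx
      exact hnx x (hNtS hx) (hNtS (hNtnorm n hn x hx))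
    -- now `ν` is conjugation by an element of `Nt ≤ R`
    obtain ⟨g, hg⟩ := hconj ν ν.2
    have hgL : g ∈ Subgroup.normalizer (R : Set G) := hnormalizer ν g hg
    have hcg : c' ⟨g, hgL⟩ = ν := by
      apply Subtype.ext
      apply MulEquiv.ext
      intro x
      apply Subtype.ext
      exact (hg x).symm
    have hgNt : g ∈ Nt := by
      refine ⟨⟨g, hgL⟩, ?_, rfl⟩
      show c' ⟨g, hgL⟩ ∈ N
      rw [hcg]
      exact hν
    refine ⟨⟨g, hNtR hgNt⟩, ?_⟩
    apply MulEquiv.ext
    intro x
    apply Subtype.ext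
    exact (hg x).symm
  · -- inner automorphisms lie in the `p`-core
    rintro _ ⟨r, rfl⟩
    have hmem : (MulAut.conj r : MulAut R) ∈ (groupFusionSystem (S : Subgroup G)).autGroup R :=
      Subgroup.subset_closure
        ⟨hRS, fun x => hRS ((MulAut.conj r : MulAut R) x).2, (r : G), fun x => rfl⟩
    refine ⟨⟨MulAut.conj r, hmem⟩, ?_, rfl⟩
    have hIn : ((Inn R).subgroupOf ((groupFusionSystem (S : Subgroup G)).autGroup R)).Normal :=
      Subgroup.Normal.subgroupOf inferInstance _
    have hIp : IsPGroup p ((Inn R).subgroupOf ((groupFusionSystem (S : Subgroup G)).autGroup R)) := by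
      have h1 : IsPGroup p (Inn R) := by
        have : Inn R = (⊤ : Subgroup R).map (MulAut.conj : R →* MulAut R) := by
          rw [← MonoidHom.range_eq_map]
        rw [this]
        exact (hRp.to_subgroup ⊤).map _
      exact h1.comap_subtype
    have hle : (Inn R).subgroupOf ((groupFusionSystem (S : Subgroup G)).autGroup R) ≤
        pCore p ((groupFusionSystem (S : Subgroup G)).autGroup R) := le_sSup ⟨hIn, hIp⟩
    apply hle
    rw [Subgroup.mem_subgroupOf]
    exact ⟨r, rfl⟩

theorem main : Cfsg.Agent.Lib.Helper52.SpStmt.RadicalOfCore.{u} := by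
  intro G _ _ p _ S R hRS hnorm hcent hopp
  exact radicalOfCore p S R hRS hnorm hcent hopp

end Cfsg.Agent.Lib.Helper22.SpRAD
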